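import Cfsg.Agent.CSixSeven.Blocks
import Cfsg.Agent.S0205

/-!
# Normal subgroups of odd order in the centraliser of the parity involution are scalar

An abelian subgroup invariant under the quadratic phase and the Fourier element generates, on each
block, a commutative algebra whose eigencomponents for nontrivial characters of the phase are
nilpotent; the common kernel of its nilpotent members is invariant under both elements, hence
everything.
-/

set_option autoImplicit false
set_option linter.unusedSectionVars false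

namespace Cfsg.Agent.CSixSeven

open Cfsg Cfsg.Geo Matrix
open scoped Fin.CommRing commutatorElement

variable {F : Type*} [Field F] {ω : F}

/-- Seven is invertible. -/
theorem seven_ne_zero_oc (hω : Omega ω) : (7 : F) ≠ 0 := by
  intro h
  have hs : ∑ t : Fin 7, w ω t = 0 := by
    rw [show (∑ t : Fin 7, w ω t) = ∑ t ∈ Finset.range 7, ω ^ t from
      Fin.sum_univ_eq_sum_range (fun l => ω ^ l) 7, geom_sum_eq hω.ne_one, hω.pow_seven, sub_self,
      zero_div]
  have hp : (ω - 1) ^ 6 = 0 := by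
    rw [Fin.sum_univ_seven] at hs
    simp only [w] at hs
    norm_num at hs
    linear_combination hs - (ω ^ 5 - 2 * ω ^ 4 + 3 * ω ^ 3 - 2 * ω ^ 2 + ω) * h
  exact hω.ne_one (sub_eq_zero.1 (eq_zero_of_pow_eq_zero hp))

/-- Orthogonality of the powers of `ω`. -/
theorem sum_w_mul (hω : Omega ω) (k : Fin 7) :
    ∑ t : Fin 7, w ω (k * t) = if k = 0 then (7 : F) else 0 := by
  split_ifs with h
  · subst h; simp
  · have hne : w ω k ≠ 1 := fun e => h ((w_eq_one hω).1 e)
    have h7 : w ω k ^ 7 = 1 := by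
      unfold w; rw [← pow_mul, mul_comm, pow_mul, hω.pow_seven, one_pow]
    rw [Finset.sum_congr rfl fun t _ => w_mul hω k t,
      Fin.sum_univ_eq_sum_range (fun l => w ω k ^ l) 7, geom_sum_eq hne, h7, sub_self, zero_div]

section Bicomm

variable {n : ℕ} {S : Set (Matrix (Fin n) (Fin n) F)}

/-- Membership in the double centraliser of `S`. -/
def Bic (S : Set (Matrix (Fin n) (Fin n) F)) (u : Matrix (Fin n) (Fin n) F) : Prop :=
  ∀ m, (∀ a ∈ S, Commute a m) → Commute u m

theorem Bic.of_mem {a : Matrix (Fin n) (Fin n) F} (ha : a ∈ S) : Bic S a := fun _ hm => hm a ha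

theorem Bic.commute (hS : ∀ a ∈ S, ∀ b ∈ S, Commute a b) {u v : Matrix (Fin n) (Fin n) F}
    (hu : Bic S u) (hv : Bic S v) : Commute u v :=
  hu v fun a ha => (hv a fun b hb => hS b hb a ha).symm

theorem Bic.conj {P Q : Matrix (Fin n) (Fin n) F} (hPQ : P * Q = 1) (hQP : Q * P = 1)
    (hP : ∀ a ∈ S, P * a * Q ∈ S) {u : Matrix (Fin n) (Fin n) F} (hu : Bic S u) :
    Bic S (P * u * Q) := by
  intro m hm
  have hm' : ∀ a ∈ S, Commute a (Q * m * P) := fun a ha => by
    have h := (hm _ (hP a ha)).eq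
    show a * (Q * m * P) = Q * m * P * a
    calc a * (Q * m * P) = (Q * P) * a * Q * m * P := by rw [hQP]; noncomm_ring
      _ = Q * (P * a * Q * m) * P := by noncomm_ring
      _ = Q * (m * (P * a * Q)) * P := by rw [h]
      _ = Q * m * P * a * (Q * P) := by noncomm_ring
      _ = Q * m * P * a := by rw [hQP, mul_one]
  have h := (hu _ hm').eq
  show P * u * Q * m = m * (P * u * Q)
  calc P * u * Q * m = P * u * Q * m * (P * Q) := by rw [hPQ, mul_one]
    _ = P * (u * (Q * m * P)) * Q := by noncomm_ring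
    _ = P * (Q * m * P * u) * Q := by rw [h]
    _ = (P * Q) * m * P * u * Q := by noncomm_ring
    _ = m * (P * u * Q) := by rw [hPQ]; noncomm_ring

/-- A finite family of commuting nilpotent matrices kills a nonzero vector. -/
theorem exists_common_kernel [Finite F] (J : Set (Matrix (Fin n) (Fin n) F))
    (hc : ∀ u ∈ J, ∀ v ∈ J, Commute u v) (hJ : ∀ u ∈ J, IsNilpotent u) {v₀ : Fin n → F}
    (hv₀ : v₀ ≠ 0) : ∃ v : Fin n → F, v ≠ 0 ∧ ∀ u ∈ J, u *ᵥ v = 0 := by
  obtain ⟨v, hv, hmin⟩ := Set.exists_min_image {v : Fin n → F | v ≠ 0}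
    (fun v => Set.ncard {u ∈ J | u *ᵥ v ≠ 0}) (Set.toFinite _) ⟨v₀, hv₀⟩
  refine ⟨v, hv, fun u hu => ?_⟩
  by_contra hne
  obtain ⟨k, hk⟩ := hJ u hu
  have hex : ∃ m, (u ^ m) *ᵥ v = 0 := ⟨k, by rw [hk, Matrix.zero_mulVec]⟩
  classical
  obtain ⟨m, hm⟩ : ∃ m, Nat.find hex = m + 1 := ⟨Nat.find hex - 1, by
    have : Nat.find hex ≠ 0 := fun h => hv (by simpa [h] using Nat.find_spec hex)
    omega⟩
  set v' := (u ^ m) *ᵥ v with hv'
  have h0 : u *ᵥ v' = 0 := by
    rw [hv', Matrix.mulVec_mulVec, ← pow_succ', ← hm]; exact Nat.find_spec hex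
  have hv'ne : v' ≠ 0 := Nat.find_min hex (by omega)
  refine (hmin v' hv'ne).not_gt (Set.ncard_lt_ncard ?_ (Set.toFinite _))
  refine Set.ssubset_iff_of_subset ?_ |>.2 ⟨u, ⟨hu, hne⟩, fun h => h.2 h0⟩
  rintro x ⟨hx, hx'⟩
  refine ⟨hx, fun h => hx' ?_⟩
  rw [hv', Matrix.mulVec_mulVec, ((hc x hx u hu).pow_right m).eq, ← Matrix.mulVec_mulVec, h,
    Matrix.mulVec_zero]

end Bicomm

section Block

variable {n : ℕ} (e : Fin n → Fin 7)

/-- The phase on a block. -/
def Ph (ω : F) (e : Fin n → Fin 7) (t : Fin 7) : Matrix (Fin n) (Fin n) F :=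
  Matrix.diagonal fun i => w ω (t * e i)

theorem ph_mul (hω : Omega ω) (s t : Fin 7) : Ph ω e s * Ph ω e t = Ph ω e (s + t) := by
  simp [Ph, ← w_add hω, add_mul]

theorem ph_zero : Ph ω e 0 = 1 := by simp [Ph]

/-- A commutative set normalised by the phase and by a matrix without zero entries consists of
scalars. -/
theorem scalar_of_normalised [Finite F] [NeZero n] (hω : Omega ω) (he : Function.Injective e)
    (hgap : ∀ j : Fin n, ∀ k : Fin 7, k ≠ 0 → ∃ t : Fin 7, ∀ l, e l ≠ e j + t * k)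
    (S : Set (Matrix (Fin n) (Fin n) F)) (hS : ∀ a ∈ S, ∀ b ∈ S, Commute a b)
    (hD : ∀ a ∈ S, Ph ω e 1 * a * Ph ω e (-1) ∈ S)
    {f fi : Matrix (Fin n) (Fin n) F} (hf : ∀ i j, f i j ≠ 0) (hff : f * fi = 1)
    (hff' : fi * f = 1) (hfS : ∀ a ∈ S, f * a * fi ∈ S) (hfiS : ∀ a ∈ S, fi * a * f ∈ S)
    {a : Matrix (Fin n) (Fin n) F} (ha : a ∈ S) :
    ∃ c : F, a = c • (1 : Matrix (Fin n) (Fin n) F) := by
  have h7 := seven_ne_zero_oc hω
  have hP : ∀ t : Fin 7, ∀ b ∈ S, Ph ω e t * b * Ph ω e (-t) ∈ S := by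
    intro t b hb
    induction t using Fin.induction with
    | zero => simpa [ph_zero] using hb
    | succ t ih =>
      have h := hD _ ih
      rw [show Ph ω e 1 * (Ph ω e t.castSucc * b * Ph ω e (-t.castSucc)) * Ph ω e (-1)
        = (Ph ω e 1 * Ph ω e t.castSucc) * b * (Ph ω e (-t.castSucc) * Ph ω e (-1)) by noncomm_ring,
        ph_mul e hω, ph_mul e hω] at h
      have e1 : ∀ t : Fin 6, 1 + t.castSucc = t.succ ∧ -t.castSucc + -1 = -t.succ := by decide
      rwa [(e1 t).1, (e1 t).2] at h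
  have hPP : ∀ t : Fin 7, Ph ω e t * Ph ω e (-t) = 1 := fun t => by
    rw [ph_mul e hω, add_neg_cancel, ph_zero]
  have hPP' : ∀ t : Fin 7, Ph ω e (-t) * Ph ω e t = 1 := fun t => by
    rw [ph_mul e hω, neg_add_cancel, ph_zero]
  set J := {u | Bic S u ∧ IsNilpotent u} with hJ
  have hconj : ∀ {P Q : Matrix (Fin n) (Fin n) F}, P * Q = 1 → Q * P = 1 →
      (∀ b ∈ S, Q * b * P ∈ S) → ∀ v : Fin n → F, (∀ u ∈ J, u *ᵥ v = 0) →
      ∀ u ∈ J, u *ᵥ (P *ᵥ v) = 0 := by
    intro P Q hPQ hQP hQS v hv u hu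
    have hu' : Q * u * P ∈ J := by
      refine ⟨hu.1.conj hQP hPQ hQS, ?_⟩
      obtain ⟨k, hk⟩ := hu.2
      refine ⟨k, ?_⟩
      have hpow : ∀ m : ℕ, (Q * u * P) ^ m = Q * u ^ m * P := by
        intro m
        induction m with
        | zero => simp [hQP]
        | succ m ih =>
          rw [pow_succ, ih, pow_succ]
          calc Q * u ^ m * P * (Q * u * P) = Q * u ^ m * (P * Q) * u * P := by noncomm_ring
            _ = Q * (u ^ m * u) * P := by rw [hPQ]; noncomm_ring
      rw [hpow, hk, mul_zero, zero_mul]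
    calc u *ᵥ (P *ᵥ v) = P *ᵥ ((Q * u * P) *ᵥ v) := by
          rw [Matrix.mulVec_mulVec, Matrix.mulVec_mulVec]
          congr 1
          calc u * P = (P * Q) * u * P := by rw [hPQ, one_mul]
            _ = _ := by noncomm_ring
      _ = 0 := by rw [hv _ hu', Matrix.mulVec_zero]
  -- the vectors killed by the nilpotent part
  have hbasis : ∀ v : Fin n → F, (∀ u ∈ J, u *ᵥ v = 0) → ∀ i, v i ≠ 0 →
      ∀ u ∈ J, u *ᵥ (Pi.single i 1) = 0 := by
    intro v hv i hi u hu
    have key : ((7 : F) * v i) • (Pi.single i 1 : Fin n → F) =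
        ∑ t : Fin 7, w ω (-(t * e i)) • (Ph ω e t *ᵥ v) := by
      funext j
      simp only [Finset.sum_apply, Pi.smul_apply, Ph, Matrix.mulVec_diagonal, smul_eq_mul]
      rw [show (∑ t : Fin 7, w ω (-(t * e i)) * (w ω (t * e j) * v j)) =
          (∑ t : Fin 7, w ω ((e j - e i) * t)) * v j by
        rw [Finset.sum_mul]
        refine Finset.sum_congr rfl fun t _ => ?_
        rw [← mul_assoc, ← w_add hω]
        congr 2
        ring, sum_w_mul hω]
      by_cases hij : j = i
      · subst hij; simp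
      · rw [if_neg (fun h => hij (he (sub_eq_zero.1 h))), Pi.single_eq_of_ne hij, zero_mul, mul_zero]
    have h0 : u *ᵥ (((7 : F) * v i) • (Pi.single i 1 : Fin n → F)) = 0 := by
      rw [key, Matrix.mulVec_sum]
      refine Finset.sum_eq_zero fun t _ => ?_
      rw [Matrix.mulVec_smul, hconj (hPP t) (hPP' t)
        (fun b hb => by simpa using hP (-t) b hb) v hv u hu, smul_zero]
    rw [Matrix.mulVec_smul, smul_eq_zero] at h0
    exact h0.resolve_left (mul_ne_zero h7 hi)
  have hJ0 : ∀ u ∈ J, u = 0 := by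
    obtain ⟨v, hv, hvJ⟩ := exists_common_kernel J (fun u hu v hv => hu.1.commute hS hv.1)
      (fun u hu => hu.2) (v₀ := Pi.single (0 : Fin n) (1 : F)) (by simp)
    obtain ⟨i₀, hi₀⟩ := Function.ne_iff.1 hv
    have h1 := hbasis v hvJ i₀ hi₀
    have h2 := hconj hff hff' hfiS _ h1
    intro u hu
    refine Matrix.ext fun r s => ?_
    have h3 := congrFun (hbasis _ h2 s (by
      rw [Matrix.mulVec_single_one]
      exact hf s i₀) u hu) r
    rwa [Matrix.mulVec_single_one] at h3
  -- members of `S` are diagonal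
  have hdiag : ∀ b ∈ S, ∀ i j, i ≠ j → b i j = 0 := by
    intro b hb i j hij
    set k := e i - e j with hk
    have hk0 : k ≠ 0 := fun h => hij (he (sub_eq_zero.1 h))
    set u : Matrix (Fin n) (Fin n) F := Matrix.of fun r s => if e r - e s = k then b r s else 0
      with hu
    have hu7 : (7 : F) • u = ∑ t : Fin 7, w ω (-(t * k)) • (Ph ω e t * b * Ph ω e (-t)) := by
      refine Matrix.ext fun r s => ?_
      simp only [Matrix.sum_apply, Matrix.smul_apply, Ph, Matrix.mul_diagonal, Matrix.diagonal_mul,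
        hu, Matrix.of_apply, smul_eq_mul]
      rw [show (∑ t : Fin 7, w ω (-(t * k)) * (w ω (t * e r) * b r s * w ω (-t * e s))) =
          (∑ t : Fin 7, w ω ((e r - e s - k) * t)) * b r s by
        rw [Finset.sum_mul]
        refine Finset.sum_congr rfl fun t _ => ?_
        rw [show (e r - e s - k) * t = -(t * k) + t * e r + -t * e s by ring, w_add hω, w_add hω]
        ring, sum_w_mul hω]
      by_cases h : e r - e s = k
      · simp [h]
      · simp [h, sub_ne_zero.2 h]
    have huB : Bic S u := by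
      intro m hm
      have h : Commute ((7 : F) • u) m := by
        rw [hu7]
        exact Commute.sum_left _ _ _ fun t _ =>
          ((Bic.of_mem (hP t b hb)) m hm).smul_left _
      simpa [smul_smul, h7] using h.smul_left (7 : F)⁻¹
    have hwalk : ∀ m : ℕ, ∀ r s, (u ^ m) r s ≠ 0 →
        e r = e s + (m : Fin 7) * k ∧ ∀ t : ℕ, t ≤ m → ∃ l, e l = e s + (t : Fin 7) * k := by
      intro m
      induction m with
      | zero =>
        intro r s h
        have : r = s := by
          by_contra hne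
          exact h (by rw [pow_zero, Matrix.one_apply_ne hne])
        subst this
        refine ⟨by simp, fun t ht => ⟨r, ?_⟩⟩
        rw [Nat.le_zero.1 ht]; simp
      | succ m ih =>
        intro r s h
        rw [pow_succ', Matrix.mul_apply] at h
        obtain ⟨l, -, hl⟩ := Finset.exists_ne_zero_of_sum_ne_zero h
        obtain ⟨hl1, hl2⟩ := mul_ne_zero_iff.1 hl
        obtain ⟨h1, h2⟩ := ih l s hl2
        have hr : e r - e l = k := by
          by_contra hne
          exact hl1 (by simp [hu, hne])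
        have hrs : e r = e s + ((m + 1 : ℕ) : Fin 7) * k := by
          rw [Nat.cast_succ, ← sub_add_cancel (e r) (e l), hr, h1]; ring
        refine ⟨hrs, fun t ht => ?_⟩
        rcases Nat.lt_or_ge t (m + 1) with ht' | ht'
        · exact h2 t (Nat.lt_succ_iff.1 ht')
        · exact ⟨r, by rw [le_antisymm ht ht']; exact hrs⟩
    have hnil : IsNilpotent u := by
      refine ⟨6, Matrix.ext fun r s => ?_⟩
      by_contra hne
      obtain ⟨t, ht⟩ := hgap s k hk0
      obtain ⟨l, hl⟩ := (hwalk 6 r s hne).2 t (Nat.lt_succ_iff.1 t.isLt)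
      exact ht l (by rwa [Fin.cast_val_eq_self] at hl)
    have := congrFun (congrFun (hJ0 u ⟨huB, hnil⟩) i) j
    simpa [hu, ← hk] using this
  refine ⟨a 0 0, Matrix.ext fun i j => ?_⟩
  by_cases hij : i = j
  · subst hij
    have hb := hfS a ha
    have hfa : f * a = (f * a * fi) * f := by rw [mul_assoc (f * a), hff', mul_one]
    have key : ∀ r s, f r s * a s s = (f * a * fi) r r * f r s := by
      intro r s
      have h := congrFun (congrFun hfa r) s
      rwa [Matrix.mul_apply, Finset.sum_eq_single s (fun c _ hc => by rw [hdiag a ha c s hc, mul_zero])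
        (by simp), Matrix.mul_apply, Finset.sum_eq_single r
          (fun c _ hc => by rw [hdiag _ hb r c hc.symm, zero_mul]) (by simp)] at h
    have h : a i i = a 0 0 := by
      have e1 := key 0 i
      have e2 := key 0 0
      refine mul_left_cancel₀ (mul_ne_zero (hf 0 i) (hf 0 0)) ?_
      linear_combination f 0 0 * e1 - f 0 i * e2
    simpa using h
  · simpa [hij] using hdiag a ha i j hij

end Block

variable {X : Subgroup (GL (Fin 7) F)}

/-- An abelian subgroup of odd order normalised by the centraliser of the parity involution is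
scalar. -/
theorem abelian_normal_scalar [Finite F] (hG : Gen ω X)
    (hmono : ∀ h ∈ X, Commute (h : M7 F) (Gm ω) → IsMono (h : M7 F))
    (N : Subgroup (GL (Fin 7) F)) (hle : N ≤ Kz X) (hodd : Odd (Nat.card N))
    (hn : ∀ k ∈ Kz X, ∀ n ∈ N, k * n * k⁻¹ ∈ N) (hab : ∀ a ∈ N, ∀ b ∈ N, Commute a b) :
    N ≤ scalars (Fin 7) F := by
  have hω := hG.omega
  obtain ⟨g, hgX, eg⟩ := hG.g
  obtain ⟨c, f, hfX, ef⟩ := hG.f
  have hc : c ≠ 0 := by
    rintro rfl
    exact f.ne_zero (by rw [ef, zero_smul])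
  have hsf : Sym (f : M7 F) := by
    intro i j
    rw [ef, Matrix.smul_apply, Matrix.smul_apply, sym_fm i j]
  have hgK : g ∈ Kz X := ⟨hgX, by rw [eg]; exact sym_iff_commute.1 sym_gm⟩
  have hfK : f ∈ Kz X := ⟨hfX, sym_iff_commute.1 hsf⟩
  -- scalarity on one block
  have main : ∀ (n : ℕ) [NeZero n] (e : Fin n → Fin 7) (φ : Kz X →* GL (Fin n) F),
      Function.Injective e →
      (∀ j : Fin n, ∀ k : Fin 7, k ≠ 0 → ∃ t : Fin 7, ∀ l, e l ≠ e j + t * k) →
      ((φ ⟨g, hgK⟩ : GL (Fin n) F) : Matrix (Fin n) (Fin n) F) = Ph ω e 1 →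
      (∀ i j, ((φ ⟨f, hfK⟩ : GL (Fin n) F) : Matrix (Fin n) (Fin n) F) i j ≠ 0) →
      ∀ a (ha : a ∈ N), ∃ d : F, ((φ ⟨a, hle ha⟩ : GL (Fin n) F) : Matrix (Fin n) (Fin n) F) =
        d • (1 : Matrix (Fin n) (Fin n) F) := by
    intro n _ e φ he hgap hφg hφf a ha
    set S : Set (Matrix (Fin n) (Fin n) F) :=
      {m | ∃ b : Kz X, (b : GL (Fin 7) F) ∈ N ∧ ((φ b : GL (Fin n) F) : Matrix (Fin n) (Fin n) F) = m}
      with hSdef
    have hconj : ∀ k : Kz X, ∀ m ∈ S, ((φ k : GL (Fin n) F) : Matrix (Fin n) (Fin n) F) * m *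
        (((φ k)⁻¹ : GL (Fin n) F) : Matrix (Fin n) (Fin n) F) ∈ S := by
      rintro k m ⟨b, hb, rfl⟩
      refine ⟨k * b * k⁻¹, hn _ k.2 _ hb, ?_⟩
      rw [map_mul, map_mul, map_inv, Units.val_mul, Units.val_mul]
    have hinv : (((φ ⟨g, hgK⟩)⁻¹ : GL (Fin n) F) : Matrix (Fin n) (Fin n) F) = Ph ω e (-1) := by
      refine (left_inv_eq_right_inv ?_ (Units.mul_inv _)).symm
      rw [hφg, ph_mul e hω, neg_add_cancel, ph_zero]
    refine scalar_of_normalised e hω he hgap S ?_ (fun m hm => ?_) hφf (Units.mul_inv _)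
      (Units.inv_mul _) (hconj _) (fun m hm => ?_) ⟨⟨a, hle ha⟩, ha, rfl⟩
    · rintro _ ⟨b, hb, rfl⟩ _ ⟨b', hb', rfl⟩
      have h : Commute b b' := Subtype.ext (hab _ hb _ hb')
      exact (h.map φ).units_val
    · have h := hconj ⟨g, hgK⟩ m hm
      rwa [hφg, hinv] at h
    · have h := hconj ⟨f, hfK⟩⁻¹ m hm
      rwa [map_inv, inv_inv] at h
  intro a ha
  have hsa : Sym (a : M7 F) := sym_of_mem (hle ha)
  obtain ⟨l, hl⟩ := main 3 (fun r => kb r * kb r) (bHom X) (by decide) (by decide)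
    (by rw [bHom_val, eg, Gm, bm_dm]; simp [Ph])
    (fun i j => by
      rw [bHom_val, ef, bm_smul, Matrix.smul_apply]
      exact mul_ne_zero hc (bm_fm_ne_zero hω i j)) a ha
  obtain ⟨m, hm⟩ := main 4 (fun r => ka r * ka r) (aHom X) (by decide) (by decide)
    (by rw [aHom_val, eg, Gm, am_dm]; simp [Ph])
    (fun i j => by
      rw [aHom_val, ef, am_smul, Matrix.smul_apply]
      exact mul_ne_zero hc (am_fm_ne_zero hω hG.two_ne_zero i j)) a ha
  rw [bHom_val] at hl
  rw [aHom_val] at hm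
  -- monomiality
  have hga : Commute (a : M7 F) (Gm ω) := by
    refine ext_blocks hG.two_ne_zero ?_ ?_ ?_ ?_
    · exact sym_iff_commute.2 ((sym_iff_commute.1 hsa).mul_left (sym_iff_commute.1 sym_gm))
    · exact sym_iff_commute.2 ((sym_iff_commute.1 sym_gm).mul_left (sym_iff_commute.1 hsa))
    · rw [bm_mul hsa sym_gm, bm_mul sym_gm hsa, hl, Matrix.smul_mul, Matrix.mul_smul, one_mul, mul_one]
    · rw [am_mul hsa sym_gm, am_mul sym_gm hsa, hm, Matrix.smul_mul, Matrix.mul_smul, one_mul, mul_one]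
  have hmo := hmono a (hle ha).1 hga
  have h1 : (a : M7 F) 1 1 - (a : M7 F) 1 (-1) = l := by
    simpa [Bm, kb] using congrFun (congrFun hl 0) 0
  have h2 : (a : M7 F) 1 1 + (a : M7 F) 1 (-1) = m := by
    simpa [Am, ka, show (1 : Fin 7) ≠ 0 by decide] using congrFun (congrFun hm 1) 1
  have h3 : (a : M7 F) (-1) 1 = (a : M7 F) 1 (-1) := by
    have := hsa 1 (-1)
    rwa [neg_neg] at this
  have hcases : m = l ∨ m = -l := by
    by_cases h0 : (a : M7 F) 1 1 = 0
    · right; rw [← h1, ← h2, h0]; ring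
    · left
      have : (a : M7 F) (-1) 1 = 0 := by
        by_contra hne
        exact absurd (hmo 1 (-1) 1 h0 hne) (by decide)
      rw [h3] at this
      rw [← h1, ← h2, this]; ring
  have hl0 : l ≠ 0 := by
    rintro rfl
    have hu := congrArg Matrix.det (bHom X ⟨a, hle ha⟩).mul_inv
    rw [bHom_val, hl, zero_smul, zero_mul, Matrix.det_one, Matrix.det_zero] at hu
    exact zero_ne_one hu
  rcases hcases with rfl | rfl
  · refine (mem_scalars_iff a).2 ⟨Units.mk0 m hl0, ?_⟩
    refine ext_blocks hG.two_ne_zero hsa (sym_iff_commute.2 ((Commute.one_left _).smul_left _)) ?_ ?_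
    · rw [hl, bm_smul, bm_one]; rfl
    · rw [hm, am_smul, am_one]; rfl
  · exfalso
    have he : (a : M7 F) = l • Zm := by
      refine ext_blocks hG.two_ne_zero hsa
        (sym_iff_commute.2 ((Commute.refl _).smul_left _)) ?_ ?_
      · rw [hl, bm_smul, bm_zm]
      · rw [hm, am_smul, am_zm, smul_neg, neg_smul]
    have hpow : (a : M7 F) ^ Nat.card N = 1 := by
      have h : (⟨a, ha⟩ : N) ^ Nat.card N = 1 := pow_card_eq_one'
      rw [← Units.val_pow_eq_pow_val, show a ^ Nat.card N = 1 from congrArg Subtype.val h,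
        Units.val_one]
    have hz : (Zm : M7 F) * Zm = 1 := by
      refine ext_blocks hG.two_ne_zero (sym_iff_commute.2 ((Commute.refl _).mul_left (Commute.refl _)))
        sym_one ?_ ?_
      · rw [bm_mul sym_zm sym_zm, bm_zm, bm_one, mul_one]
      · rw [am_mul sym_zm sym_zm, am_zm, am_one, neg_mul_neg, mul_one]
    obtain ⟨k, hk⟩ := hodd
    rw [hk, he, smul_pow, show (Zm : M7 F) ^ (2 * k + 1) = Zm by
      rw [pow_succ, pow_mul, pow_two, hz, one_pow, one_mul]] at hpow
    have hb := congrArg Bm hpow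
    have ha' := congrArg Am hpow
    rw [bm_smul, bm_zm, bm_one] at hb
    rw [am_smul, am_zm, am_one] at ha'
    have e1 := congrFun (congrFun hb 0) 0
    have e2 := congrFun (congrFun ha' 0) 0
    simp at e1 e2
    exact hG.two_ne_zero (by linear_combination -e1 - e2)

/-- A subgroup of odd order normalised by the centraliser of the parity involution is scalar. -/
theorem odd_normal_scalar [Finite F] (hG : Gen ω X)
    (hmono : ∀ h ∈ X, Commute (h : M7 F) (Gm ω) → IsMono (h : M7 F))
    (N : Subgroup (GL (Fin 7) F)) (hle : N ≤ Kz X) (hodd : Odd (Nat.card N))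
    (hn : ∀ k ∈ Kz X, ∀ n ∈ N, k * n * k⁻¹ ∈ N) : N ≤ scalars (Fin 7) F := by
  induction hcard : Nat.card N using Nat.strong_induction_on generalizing N with
  | _ d ih =>
    by_cases hbot : N = ⊥
    · rw [hbot]; exact bot_le
    have : Nontrivial N := (Subgroup.nontrivial_iff_ne_bot N).2 hbot
    have : Group.IsSolvable N := Cfsg.Agent.S0205.result hodd
    set D : Subgroup (GL (Fin 7) F) := (commutator N).map N.subtype with hD
    have hDN : D ≤ N := Subgroup.map_subtype_le _
    have hlt : Nat.card D < d := by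
      rw [← hcard, hD, Subgroup.card_subtype]
      refine lt_of_le_of_ne (Subgroup.card_le_card_group _) fun h => ?_
      exact (Group.IsSolvable.commutator_lt_top_of_nontrivial N).ne (Subgroup.eq_top_of_card_eq _ h)
    have hDeq : D = ⁅N, N⁆ := by
      rw [hD, commutator_def, Subgroup.map_commutator, ← MonoidHom.range_eq_map, Subgroup.range_subtype]
    have hDn : ∀ k ∈ Kz X, ∀ x ∈ D, k * x * k⁻¹ ∈ D := by
      intro k hk
      have hmap : N.map (MulAut.conj k).toMonoidHom ≤ N := by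
        rintro _ ⟨x, hx, rfl⟩; exact hn k hk x hx
      intro x hx
      rw [hDeq] at hx ⊢
      have h := Subgroup.mem_map_of_mem (MulAut.conj k).toMonoidHom hx
      rw [Subgroup.map_commutator] at h
      exact Subgroup.commutator_mono hmap hmap h
    have hDs := ih _ hlt D (hDN.trans hle) (hodd.of_dvd_nat (Subgroup.card_dvd_of_le hDN)) hDn rfl
    refine abelian_normal_scalar hG hmono N hle hodd hn fun a ha b hb => ?_
    obtain ⟨u, hu⟩ := (mem_scalars_iff _).1
      (hDs (hDeq ▸ Subgroup.commutator_mem_commutator ha hb : ⁅a, b⁆ ∈ D))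
    have hab : a * b = ⁅a, b⁆ * (b * a) := by rw [commutatorElement_def]; group
    have hmat : (a : M7 F) * b = (u : F) • ((b : M7 F) * a) := by
      have h := congrArg (fun x : GL (Fin 7) F => (x : M7 F)) hab
      simp only [Units.val_mul] at h
      rw [h, hu, Matrix.smul_mul, one_mul]
    have hsa := sym_of_mem (hle ha)
    have hsb := sym_of_mem (hle hb)
    set a' : Kz X := ⟨a, hle ha⟩
    set b' : Kz X := ⟨b, hle hb⟩
    have hB := congrArg (fun M => Matrix.det (Bm M)) hmat
    have hA := congrArg (fun M => Matrix.det (Am M)) hmat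
    simp only [bm_smul, bm_mul hsa hsb, bm_mul hsb hsa, am_smul, am_mul hsa hsb, am_mul hsb hsa,
      Matrix.det_smul, Matrix.det_mul, Fintype.card_fin] at hB hA
    have hb0 : Matrix.det (Bm (a : M7 F)) * Matrix.det (Bm (b : M7 F)) ≠ 0 := by
      refine mul_ne_zero ?_ ?_
      · exact ((Matrix.isUnit_iff_isUnit_det _).1 (bHom X a').isUnit).ne_zero
      · exact ((Matrix.isUnit_iff_isUnit_det _).1 (bHom X b').isUnit).ne_zero
    have ha0 : Matrix.det (Am (a : M7 F)) * Matrix.det (Am (b : M7 F)) ≠ 0 := by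
      refine mul_ne_zero ?_ ?_
      · exact ((Matrix.isUnit_iff_isUnit_det _).1 (aHom X a').isUnit).ne_zero
      · exact ((Matrix.isUnit_iff_isUnit_det _).1 (aHom X b').isUnit).ne_zero
    have h3 : (u : F) ^ 3 = 1 := mul_right_cancel₀ hb0 (by linear_combination -hB)
    have h4 : (u : F) ^ 4 = 1 := mul_right_cancel₀ ha0 (by linear_combination -hA)
    have h1 : (u : F) = 1 := by rwa [pow_succ, h3, one_mul] at h4
    exact Units.ext (by rw [Units.val_mul, Units.val_mul, hmat, h1, one_smul])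

end Cfsg.Agent.CSixSeven
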