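import Cfsg.Agent.CSixSeven.Kernel
import Cfsg.Agent.CSixSeven.PGroup
import Cfsg.Agent.CSixSeven.Plane
import Cfsg.Agent.CSixSeven.UniqZero
import Cfsg.Agent.CSixSeven.Homology
import Cfsg.Agent.CSixSeven.Central
import Cfsg.Agent.CSixSeven.OddCore
import Cfsg.Agent.CSixSeven.Finish
import Cfsg.Agent.CSixSeven.PairFull
import Cfsg.Agent.CSixSeven.Transv
import Cfsg.Agent.CSixSeven.Maximal

/-!
# The normaliser of `7^{1+2}` is maximal in `SL₇(q)`, `q` odd
-/

set_option autoImplicit false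
set_option linter.style.haveILetI false

open scoped Classical

namespace Cfsg.Agent.CSixSeven

open Cfsg Cfsg.Geo Matrix

variable {F : Type*} [Field F] [Finite F] {ω : F} {X : Subgroup (GL (Fin 7) F)}

/-- An overgroup without transvections normalises the standard group of order 343. -/
theorem normR_of_noTv (hG : Gen ω X) (hN : NoTv X) : ∀ h ∈ X, NormR ω (h : M7 F) := by
  have hmono : ∀ {h : GL (Fin 7) F}, h ∈ X → Commute (h : M7 F) (Gm ω) → IsMono (h : M7 F) :=
    fun hh hc => mono_of_commute_g hG hN hh hc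
  have hker : ∀ {h : GL (Fin 7) F}, h ∈ Kz X → Bm (h : M7 F) = 1 →
      (h : M7 F) = 1 ∨ (h : M7 F) = Zm :=
    fun hK hB => Kernel.kerB hG hmono (fun p _ _ U hU hp hB hgn => by
      obtain ⟨g, hg, hgv⟩ := hG.g
      exact pgroup_kerB_eq_bot p hG hN U hU hp hB hgv (hgn g hg hgv)) hK hB
  have hu : UniqZero X := uniqZero hG hker
  have hhom : Central.HHom X := fun hK _ hB hc =>
    no_homology hG hu (fun _ h1 h2 => hker h1 h2) hK hB hc
  have hKz := Kz_eq_K0 hG hu hmono hhom
  refine normR_of_uniq hG (fun h hh ho => hu h (hKz ▸ hh) ho) fun N hle hodd hn => ?_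
  exact odd_normal_scalar hG (fun h hh hc => hmono hh hc) N hle hodd hn

/-- Two transvections whose product of parameters has an irrational trace give a root group. -/
theorem pairStatement (hG : Gen ω X) (hH : FieldHyp F) : PairStatement X := by
  rintro r ⟨u, φ, h0, rfl, hr⟩ s ⟨v, ψ, h1, rfl, hs⟩ hrs
  have e : (vecMulVec u φ * vecMulVec v ψ).trace = (φ ⬝ᵥ v) * (ψ ⬝ᵥ u) := by
    rw [vecMulVec_mul_vecMulVec, trace_vecMulVec, dotProduct_smul, smul_eq_mul,
      dotProduct_comm u ψ]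
  rw [e] at hrs
  exact full_of_pair hG.two_ne_zero hH.card_ne_nine h0 h1 hr hs
    (fun h => hrs (h ▸ zero_mem _)) (hH.full _ hrs)

/-- Clause 5 of the list of maximal subgroups of `SL₇`, odd characteristic. -/
theorem symplecticType_seven_maximal_odd {F : Type*} [Field F] [Fintype F] {p : ℕ} (hp : p.Prime)
    [CharP F p] (hp2 : p ≠ 2)
    (hcard : (Fintype.card F = p ∧ p % 7 = 1) ∨ (Fintype.card F = p ^ 3 ∧ (p % 7 = 2 ∨ p % 7 = 4)))
    (R : Subgroup (GL (Fin 7) F)) (hR : IsLinearSymplecticTypeData 7 R) :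
    IsMaximalIn (specialLinear (Fin 7) F) (subgroupNormalizer R ⊓ specialLinear (Fin 7) F) := by
  haveI : Fact p.Prime := ⟨hp⟩
  have h2 : (2 : F) ≠ 0 := fun h =>
    hp2 ((Nat.prime_dvd_prime_iff_eq hp Nat.prime_two).1
      ((CharP.cast_eq_zero_iff F p 2).1 (by exact_mod_cast h)))
  refine symplecticType_seven_maximal_of h2 R hR (fun ω X hG hT => ?_)
    fun ω X hG hN => normR_of_noTv hG hN
  obtain ⟨hH, hω0⟩ := fieldHyp_of_card hG.omega (p := p) (by simpa [Nat.card_eq_fintype_card] using hcard)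
  exact sl_le_of_not_noTv hG hH hω0 (pairStatement hG hH) hT

end Cfsg.Agent.CSixSeven
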